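import Mathlib

/-!
An automorphism commuting with an involutory action that inverts `P / M` and fixes the central
subgroup `M` acts quadratically on the subgroup generated by two inverted representatives, provided
its action on `P / M` is a transvection.
-/

set_option autoImplicit false

open scoped commutatorElement

namespace CfsgLib.FusionBasics.PStable

variable {X : Type*} [Group X] [Finite X] {p : ℕ} [hp : Fact p.Prime]

/-- The data of a rank two inverted pair. -/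
structure InvertedPair (p : ℕ) (P M : Subgroup X) (t x a : X) : Prop where
  isP : IsPGroup p M
  cen : ∀ m ∈ M, ∀ v ∈ P, Commute m v
  der : ∀ v ∈ P, ∀ w ∈ P, ⁅v, w⁆ ∈ M
  exp : ∀ v ∈ P, v ^ p ∈ M
  fix : ∀ m ∈ M, t * m * t⁻¹ = m
  xP : x ∈ P
  aP : a ∈ P
  xinv : t * x * t⁻¹ = x⁻¹
  ainv : t * a * t⁻¹ = a⁻¹

variable {P M : Subgroup X} {t x a : X}

theorem InvertedPair.symm (h : InvertedPair p P M t x a) : InvertedPair p P M t a x :=
  ⟨h.isP, h.cen, h.der, h.exp, h.fix, h.aP, h.xP, h.ainv, h.xinv⟩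

theorem InvertedPair.eq_one_of_sq (h : InvertedPair p P M t x a) (hp2 : p ≠ 2) {m : X} (hm : m ∈ M)
    (h2 : m ^ 2 = 1) : m = 1 := by
  obtain ⟨i, hi⟩ := h.isP ⟨m, hm⟩
  exact orderOf_eq_one_iff.1 (Nat.eq_one_of_dvd_coprimes
    (((Nat.coprime_primes Nat.prime_two hp.out).2 (Ne.symm hp2)).pow_right i)
    (orderOf_dvd_of_pow_eq_one h2) (orderOf_dvd_of_pow_eq_one (congrArg Subtype.val hi)))

/-- An inverted element is determined by its class modulo `M`. -/
theorem InvertedPair.inverted_unique (h : InvertedPair p P M t x a) (hp2 : p ≠ 2) {v m : X}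
    (hv : v ∈ P) (hm : m ∈ M) (hvi : t * v * t⁻¹ = v⁻¹) (hvm : t * (v * m) * t⁻¹ = (v * m)⁻¹) :
    m = 1 := by
  refine h.eq_one_of_sq hp2 hm ?_
  have e : v⁻¹ * m = (v * m)⁻¹ := by
    calc v⁻¹ * m = (t * v * t⁻¹) * (t * m * t⁻¹) := by rw [hvi, h.fix m hm]
      _ = (v * m)⁻¹ := by rw [← hvm]; group
  rw [mul_inv_rev, ← (h.cen m hm v hv).inv_inv.symm.eq] at e
  have e2 := mul_left_cancel e
  rw [sq]
  nth_rw 2 [e2]
  exact mul_inv_cancel m

theorem InvertedPair.pow_eq_one (h : InvertedPair p P M t x a) (hp2 : p ≠ 2) : x ^ p = 1 := by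
  refine h.eq_one_of_sq hp2 (h.exp x h.xP) ?_
  have e : x ^ p = (x ^ p)⁻¹ := by
    calc x ^ p = t * x ^ p * t⁻¹ := (h.fix _ (h.exp x h.xP)).symm
      _ = (x ^ p)⁻¹ := by rw [← conj_pow, h.xinv, inv_pow]
  rw [sq]
  nth_rw 2 [e]
  exact mul_inv_cancel _

/-- An element preserving the pair modulo `M` as a transvection and commuting with `t` fixes the
commutator and acts quadratically on `⟨x, a⟩`. -/
theorem InvertedPair.quadratic (h : InvertedPair p P M t x a) (hp2 : p ≠ 2) {u : X}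
    (huP : ∀ v ∈ P, u * v * u⁻¹ ∈ P)
    (hcomm : ∀ v ∈ P, t * (u * v * u⁻¹) * t⁻¹ = u * (t * v * t⁻¹) * u⁻¹)
    (hxa : ∀ (e : ℤ) (m : X), m ∈ M → x ≠ a ^ e * m)
    (hua : ∃ m ∈ M, u * a * u⁻¹ = a * m)
    (hux : ∃ (e : ℤ) (m : X), m ∈ M ∧ u * x * u⁻¹ = a ^ e * x * m) :
    u ∈ Subgroup.normalizer (Subgroup.closure ({x, a} : Set X) : Set X) ∧
      ∀ v ∈ Subgroup.closure ({x, a} : Set X), ⁅⁅v, u⁆, u⁆ = 1 := by
  obtain ⟨H, hHdef⟩ : ∃ H, H = Subgroup.closure ({x, a} : Set X) := ⟨_, rfl⟩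
  rw [← hHdef]
  obtain ⟨mz, hmz, hua'⟩ := hua
  have hfa : u * a * u⁻¹ = a := by
    rw [hua', h.inverted_unique hp2 h.aP hmz h.ainv
      (by rw [← hua', hcomm a h.aP, h.ainv]; group), mul_one]
  obtain ⟨e, mx, hmx, hux⟩ := hux
  obtain ⟨z, hzdef⟩ : ∃ z, z = ⁅x, a⁆ := ⟨_, rfl⟩
  have hzM : z ∈ M := hzdef ▸ h.der x h.xP a h.aP
  have hxH : x ∈ H := hHdef ▸ Subgroup.subset_closure (by simp)
  have haH : a ∈ H := hHdef ▸ Subgroup.subset_closure (by simp)
  have hzH : z ∈ H := by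
    rw [hzdef, commutatorElement_def]
    exact mul_mem (mul_mem (mul_mem hxH haH) (inv_mem hxH)) (inv_mem haH)
  have hHP : H ≤ P := hHdef ▸ (Subgroup.closure_le _).2 (by
    rintro _ (rfl | rfl); exacts [h.xP, h.aP])
  have hxax : x * a * x⁻¹ = z * a := by rw [hzdef, commutatorElement_def]; group
  -- the image of `x` lies in `H`
  obtain ⟨v₀, hv₀⟩ : ∃ v, v = a ^ e * x := ⟨_, rfl⟩
  have hv₀H : v₀ ∈ H := hv₀ ▸ mul_mem (zpow_mem haH e) hxH
  have hmxH : mx ∈ H := by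
    have hinv : t * (v₀ * mx) * t⁻¹ = (v₀ * mx)⁻¹ := by
      rw [hv₀, ← hux, hcomm x h.xP, h.xinv]; group
    have hte : t * v₀ * t⁻¹ = (a ^ e)⁻¹ * x⁻¹ := by
      rw [hv₀, show t * (a ^ e * x) * t⁻¹ = (t * a ^ e * t⁻¹) * (t * x * t⁻¹) by group, ← conj_zpow,
        h.ainv, h.xinv, inv_zpow]
    have e1 : (t * v₀ * t⁻¹) * mx = mx⁻¹ * v₀⁻¹ := by
      rw [← mul_inv_rev, ← hinv]
      nth_rw 1 [← h.fix mx hmx]
      group
    have hsq : mx ^ 2 = (t * v₀ * t⁻¹)⁻¹ * v₀⁻¹ := by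
      have hc := (h.cen mx hmx v₀ (hHP hv₀H)).inv_inv.eq
      rw [hc] at e1
      calc mx ^ 2 = (t * v₀ * t⁻¹)⁻¹ * ((t * v₀ * t⁻¹) * mx) * mx := by rw [sq]; group
        _ = (t * v₀ * t⁻¹)⁻¹ * v₀⁻¹ := by rw [e1]; group
    have hsqH : mx ^ 2 ∈ H := by
      rw [hsq, hte]
      exact mul_mem (inv_mem (mul_mem (inv_mem (zpow_mem haH e)) (inv_mem hxH))) (inv_mem hv₀H)
    obtain ⟨i, hi⟩ := h.isP ⟨mx, hmx⟩
    have hcop : (2 : ℕ).Coprime (orderOf mx) := by
      refine Nat.Coprime.coprime_dvd_right (orderOf_dvd_of_pow_eq_one (congrArg Subtype.val hi)) ?_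
      exact ((Nat.coprime_primes Nat.prime_two hp.out).2 (Ne.symm hp2)).pow_right i
    obtain ⟨j, hj⟩ := exists_pow_eq_self_of_coprime hcop
    rw [← hj]
    exact pow_mem hsqH j
  have huxH : u * x * u⁻¹ ∈ H := by rw [hux, ← hv₀]; exact mul_mem hv₀H hmxH
  have huH : u ∈ Subgroup.normalizer (H : Set X) := by
    refine Subgroup.mem_normalizer_fintype fun v hv => ?_
    have hle : H.map (MulAut.conj u).toMonoidHom ≤ H := by
      nth_rw 1 [hHdef]
      rw [MonoidHom.map_closure, Subgroup.closure_le]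
      rintro _ ⟨y, (rfl | rfl), rfl⟩
      · exact huxH
      · show u * y * u⁻¹ ∈ H
        rw [hfa]; exact haH
    exact hle ⟨v, hv, rfl⟩
  refine ⟨huH, ?_⟩
  -- `u` fixes `N = ⟨a, z⟩`
  have hfz : u * z * u⁻¹ = z := by
    obtain ⟨c, hc⟩ : ∃ c, c = a ^ e * (x * mx * x⁻¹) := ⟨_, rfl⟩
    have hca : Commute c a := by
      rw [hc, show x * mx * x⁻¹ = mx by rw [← (h.cen mx hmx x h.xP).eq, mul_inv_cancel_right]]
      exact ((Commute.refl a).zpow_left e).mul_left (h.cen mx hmx a h.aP)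
    have hcP : c ∈ P := by
      rw [hc, show x * mx * x⁻¹ = mx by rw [← (h.cen mx hmx x h.xP).eq, mul_inv_cancel_right]]
      exact mul_mem (zpow_mem h.aP e) (hHP hmxH)
    calc u * z * u⁻¹ = ⁅u * x * u⁻¹, u * a * u⁻¹⁆ := by
          rw [hzdef, commutatorElement_def, commutatorElement_def]; group
      _ = ⁅c * x, a⁆ := by rw [hfa, hux, hc]; group
      _ = c * (x * a * x⁻¹) * c⁻¹ * a⁻¹ := by rw [commutatorElement_def]; group
      _ = z := by
          rw [hxax, show c * (z * a) = z * (c * a) by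
            rw [← mul_assoc, (h.cen z hzM c hcP).symm.eq, mul_assoc], hca.eq]
          group
  obtain ⟨N, hNdef⟩ : ∃ N, N = Subgroup.closure ({a, z} : Set X) := ⟨_, rfl⟩
  have hNH : N ≤ H := hNdef ▸ (Subgroup.closure_le _).2 (by
    rintro _ (rfl | rfl); exacts [haH, hzH])
  have haN : a ∈ N := hNdef ▸ Subgroup.subset_closure (by simp)
  have hzN : z ∈ N := hNdef ▸ Subgroup.subset_closure (by simp)
  have hfN : ∀ n ∈ N, u * n * u⁻¹ = n := by
    intro n hn
    rw [hNdef] at hn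
    have hle : Subgroup.closure ({a, z} : Set X) ≤ Subgroup.centralizer ({u} : Set X) :=
      (Subgroup.closure_le _).2 (by
        rintro w (rfl | rfl) <;> refine Subgroup.mem_centralizer_iff.2 fun s hs => ?_ <;>
          rw [Set.mem_singleton_iff.1 hs]
        · exact mul_inv_eq_iff_eq_mul.1 hfa
        · exact mul_inv_eq_iff_eq_mul.1 hfz)
    rw [Subgroup.mem_centralizer_iff.1 (hle hn) u rfl, mul_inv_cancel_right]
  have hHN : H ≤ Subgroup.normalizer (N : Set X) := by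
    nth_rw 1 [hHdef]
    refine (Subgroup.closure_le _).2 ?_
    rintro w (rfl | rfl)
    · refine Subgroup.mem_normalizer_fintype fun n hn => ?_
      have hle : N.map (MulAut.conj w).toMonoidHom ≤ N := by
        nth_rw 1 [hNdef]
        rw [MonoidHom.map_closure, Subgroup.closure_le]
        rintro _ ⟨y, (rfl | rfl), rfl⟩
        · show w * y * w⁻¹ ∈ N
          rw [hxax]; exact mul_mem hzN haN
        · show w * y * w⁻¹ ∈ N
          rw [← (h.cen y hzM w h.xP).eq, mul_inv_cancel_right]; exact hzN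
      exact hle ⟨n, hn, rfl⟩
    · exact Subgroup.le_normalizer haN
  have hNnorm : ∀ v ∈ H, ∀ n ∈ N, v * n * v⁻¹ ∈ N := fun v hv n hn =>
    (Subgroup.mem_normalizer_iff.1 (hHN hv) n).1 hn
  -- `H = ⟨x⟩ N`, so the displacement of `x` is in `N`
  obtain ⟨y, hy⟩ : ∃ y, y = u * x * u⁻¹ * x⁻¹ := ⟨_, rfl⟩
  have hyH : y ∈ H := hy ▸ mul_mem huxH (inv_mem hxH)
  have hyN : y ∈ N := by
    have hsup : H ≤ Subgroup.zpowers x ⊔ N := hHdef ▸ (Subgroup.closure_le _).2 (by
      rintro _ (rfl | rfl)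
      exacts [Subgroup.mem_sup_left (Subgroup.mem_zpowers _), Subgroup.mem_sup_right haN])
    have hxN : Subgroup.zpowers x ≤ Subgroup.normalizer (N : Set X) :=
      Subgroup.zpowers_le.2 (hHN hxH)
    have hy' := hsup hyH
    rw [← SetLike.mem_coe, Subgroup.coe_mul_of_left_le_normalizer_right _ _ hxN] at hy'
    obtain ⟨_, ⟨i, rfl⟩, n, hn, hin⟩ := Set.mem_mul.1 hy'
    have hxi : x ^ i = 1 := by
      by_cases hd : (p : ℤ) ∣ i
      · obtain ⟨k, rfl⟩ := hd
        rw [zpow_mul, zpow_natCast, h.pow_eq_one hp2, one_zpow]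
      · exfalso
        -- otherwise `x` would lie in `⟨a⟩ M`
        let L : Subgroup X := Subgroup.zpowers a ⊔ M
        have hyL : y ∈ L := by
          rw [hy, hux, show a ^ e * x * mx * x⁻¹ = a ^ e * (x * mx * x⁻¹) by group,
            show x * mx * x⁻¹ = mx by rw [← (h.cen mx hmx x h.xP).eq, mul_inv_cancel_right]]
          exact mul_mem (Subgroup.mem_sup_left (zpow_mem (Subgroup.mem_zpowers a) e))
            (Subgroup.mem_sup_right hmx)
        have hnL : n ∈ L := by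
          have : N ≤ L := hNdef ▸ (Subgroup.closure_le _).2 (by
            rintro _ (rfl | rfl)
            exacts [Subgroup.mem_sup_left (Subgroup.mem_zpowers _), Subgroup.mem_sup_right hzM])
          exact this hn
        have hxiL : x ^ i ∈ L := by
          rw [show x ^ i = y * n⁻¹ from eq_mul_inv_of_mul_eq hin]
          exact mul_mem hyL (inv_mem hnL)
        have hcop : IsCoprime (p : ℤ) i := (Nat.prime_iff_prime_int.1 hp.out).coprime_iff_not_dvd.2 hd
        obtain ⟨r, s, hrs⟩ := hcop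
        have hxL : x ∈ L := by
          rw [show x = (x ^ (p : ℤ)) ^ r * (x ^ i) ^ s by
            rw [← zpow_mul, ← zpow_mul, ← zpow_add, show (p : ℤ) * r + i * s = 1 by linarith, zpow_one]]
          refine mul_mem (zpow_mem ?_ r) (zpow_mem hxiL s)
          rw [zpow_natCast, h.pow_eq_one hp2]
          exact one_mem L
        have haM : Subgroup.zpowers a ≤ Subgroup.normalizer (M : Set X) := Subgroup.zpowers_le.2
          (Subgroup.mem_normalizer_fintype fun m hm => by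
            rw [← (h.cen m hm a h.aP).eq, mul_inv_cancel_right]; exact hm)
        rw [← SetLike.mem_coe, Subgroup.coe_mul_of_left_le_normalizer_right _ _ haM] at hxL
        obtain ⟨_, ⟨k, rfl⟩, m, hm, hkm⟩ := Set.mem_mul.1 hxL
        exact hxa k m hm hkm.symm
    rw [← hin]
    show x ^ i * n ∈ N
    rw [hxi, one_mul]
    exact hn
  have hW : ∀ v ∈ H, u * v * u⁻¹ * v⁻¹ ∈ N := by
    intro v hv
    rw [hHdef] at hv
    induction hv using Subgroup.closure_induction with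
    | mem w hw =>
      rcases hw with rfl | rfl
      · rw [← hy]; exact hyN
      · rw [hfa, mul_inv_cancel]; exact one_mem N
    | one => simp
    | mul v w hv hw h1 h2 =>
      have hv' : v ∈ H := hHdef ▸ hv
      rw [show u * (v * w) * u⁻¹ * (v * w)⁻¹ =
        (u * v * u⁻¹ * v⁻¹) * (v * (u * w * u⁻¹ * w⁻¹) * v⁻¹) by group]
      exact mul_mem h1 (hNnorm v hv' _ h2)
    | inv v hv h1 =>
      have hv' : v⁻¹ ∈ H := inv_mem (hHdef ▸ hv)
      rw [show u * v⁻¹ * u⁻¹ * v⁻¹⁻¹ = v⁻¹ * (u * v * u⁻¹ * v⁻¹)⁻¹ * v⁻¹⁻¹ by group]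
      exact hNnorm _ hv' _ (inv_mem h1)
  intro v hv
  rw [commutatorElement_eq_one_iff_commute,
    show ⁅v, u⁆ = (u * v * u⁻¹ * v⁻¹)⁻¹ by rw [commutatorElement_def]; group]
  exact (Commute.symm (mul_inv_eq_iff_eq_mul.1 (hfN _ (hW v hv)))).inv_left

end CfsgLib.FusionBasics.PStable
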