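import Cfsg.Agent.Lib.QdFree.ZJStable
import Cfsg.Agent.Lib.FusionBasics.PStable.InvertedPair

/-!
`p`-stability in the normalizer form passes to quotients by normal `p`-subgroups centralised by all
`p'`-elements, for every odd prime `p`.
-/

set_option autoImplicit false
set_option linter.style.haveILetI false

open scoped commutatorElement

namespace CfsgLib.FusionBasics.PStable

open Cfsg CfsgLib.NormalPComplement CfsgLib.QdFree CfsgLib.Replacement

universe u

variable {X : Type u} [Group X] [Finite X] {p : ℕ} [hp : Fact p.Prime]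

/-- Two elements acting quadratically modulo the fixed points of the `p'`-elements of the group they
generate act as a `p`-group, in a `p`-stable group, `p` odd. -/
theorem exists_pow_mem_centralizer_of_stable_odd (hp2 : p ≠ 2) (hst : IsNormalizerPStable p X) :
    ∀ (P : Subgroup X), IsPGroup p P → ∀ (g h : X), g ∈ Subgroup.normalizer (P : Set X) →
      h ∈ Subgroup.normalizer (P : Set X) →
      (∀ v ∈ P, ∀ d ∈ Subgroup.closure ({g, h} : Set X), (orderOf d).Coprime p →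
        Commute d ⁅⁅v, g⁆, g⁆) →
      (∀ v ∈ P, ∀ d ∈ Subgroup.closure ({g, h} : Set X), (orderOf d).Coprime p →
        Commute d ⁅⁅v, h⁆, h⁆) →
      ∀ c ∈ Subgroup.closure ({g, h} : Set X),
        ∃ k : ℕ, c ^ p ^ k ∈ Subgroup.centralizer (P : Set X) := by
  suffices main : ∀ (n : ℕ) (P : Subgroup X), Nat.card P = n → IsPGroup p P → ∀ (g h : X),
      g ∈ Subgroup.normalizer (P : Set X) → h ∈ Subgroup.normalizer (P : Set X) →
      (∀ v ∈ P, ∀ d ∈ Subgroup.closure ({g, h} : Set X), (orderOf d).Coprime p →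
        Commute d ⁅⁅v, g⁆, g⁆) →
      (∀ v ∈ P, ∀ d ∈ Subgroup.closure ({g, h} : Set X), (orderOf d).Coprime p →
        Commute d ⁅⁅v, h⁆, h⁆) →
      ∀ c ∈ Subgroup.closure ({g, h} : Set X),
        ∃ k : ℕ, c ^ p ^ k ∈ Subgroup.centralizer (P : Set X) from
    fun P => main _ P rfl
  intro n
  induction n using Nat.strong_induction_on with
  | _ n ihn =>
  intro P hn hP g h hg hh hqg hqh c hc
  classical
  have hp2le := hp.out.two_le
  set Y := Subgroup.closure ({g, h} : Set X) with hY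
  set Y0 := Subgroup.closure {d : X | d ∈ Y ∧ (orderOf d).Coprime p} with hY0
  set F := Subgroup.centralizer (Y0 : Set X) with hF
  have hFmem : ∀ x : X, x ∈ F ↔ ∀ d ∈ Y, (orderOf d).Coprime p → Commute d x := by
    intro x
    rw [hF, hY0, Subgroup.centralizer_closure, Subgroup.mem_centralizer_iff]
    exact ⟨fun h d hd hd' => h d ⟨hd, hd'⟩, fun h d hd => h d hd.1 hd.2⟩
  by_contra hcon
  obtain ⟨k0, hk0⟩ := exists_pow_coprime_orderOf (p := p) (isOfFinOrder_of_finite c)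
  obtain ⟨P0, hP0eq⟩ : ∃ P0, P0 = P := ⟨P, rfl⟩
  have hgP0 : g ∈ Subgroup.normalizer (P0 : Set X) := hP0eq ▸ hg
  have hhP0 : h ∈ Subgroup.normalizer (P0 : Set X) := hP0eq ▸ hh
  have hP0P : P0 ≤ P := hP0eq.le
  have hP0F : ¬ P0 ≤ F := fun hle => hcon ⟨k0, Subgroup.mem_centralizer_iff.2 fun v hv =>
    (((hFmem v).1 (hle (hP0eq ▸ hv))) _ (pow_mem hc _) hk0).eq.symm⟩
  have hYle : ∀ {R : Subgroup X}, g ∈ Subgroup.normalizer (R : Set X) →
      h ∈ Subgroup.normalizer (R : Set X) → Y ≤ Subgroup.normalizer (R : Set X) := fun h1 h2 =>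
    (Subgroup.closure_le _).2 (by rintro x (rfl | rfl); exacts [h1, h2])
  have hYP0 := hYle hgP0 hhP0
  have hcj : ∀ x ∈ Y, ∀ v ∈ P0, x * v * x⁻¹ ∈ P0 := fun x hx v hv =>
    (Subgroup.mem_normalizer_iff.1 (hYP0 hx) v).1 hv
  -- proper invariant subgroups: induction
  have hrec : ∀ R : Subgroup X, R ≤ P0 → R ≠ P0 → ∀ (a b : X), a ∈ Y → b ∈ Y →
      a ∈ Subgroup.normalizer (R : Set X) → b ∈ Subgroup.normalizer (R : Set X) →
      (∀ v ∈ R, ∀ d ∈ Y, (orderOf d).Coprime p → Commute d ⁅⁅v, a⁆, a⁆) →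
      (∀ v ∈ R, ∀ d ∈ Y, (orderOf d).Coprime p → Commute d ⁅⁅v, b⁆, b⁆) →
      ∀ d ∈ Subgroup.closure ({a, b} : Set X), (orderOf d).Coprime p → ∀ r ∈ R, Commute d r := by
    intro R hR hne a b ha hb hna hnb hqa hqb d hd hd' r hr
    have hab : Subgroup.closure ({a, b} : Set X) ≤ Y :=
      (Subgroup.closure_le _).2 (by rintro x (rfl | rfl); exacts [ha, hb])
    have hlt : Nat.card R < n := by
      rw [← hn, ← hP0eq]
      exact lt_of_le_of_ne (Subgroup.card_le_of_le hR) fun e =>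
        hne (Subgroup.eq_of_le_of_card_ge hR e.ge)
    obtain ⟨k, hk⟩ := ihn _ hlt R rfl (hP.to_le (hR.trans hP0P)) a b hna hnb
      (fun v hv e he he' => hqa v hv e (hab he) he') (fun v hv e he he' => hqb v hv e (hab he) he') d hd
    obtain ⟨j, hj⟩ := exists_pow_eq_self_of_coprime (hd'.symm.pow_left k)
    have h1 := Subgroup.mem_centralizer_iff.1 hk r hr
    rw [← hj]
    exact (show Commute (d ^ p ^ k) r from h1.symm).pow_left j
  have hsub : ∀ R : Subgroup X, R ≤ P0 → R ≠ P0 → (∀ x ∈ Y, ∀ r ∈ R, x * r * x⁻¹ ∈ R) → R ≤ F := by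
    intro R hR hne hinv r hr
    refine (hFmem r).2 fun d hd hd' => ?_
    exact hrec R hR hne g h (Subgroup.subset_closure (by simp)) (Subgroup.subset_closure (by simp))
      (Subgroup.mem_normalizer_fintype (hinv g (Subgroup.subset_closure (by simp))))
      (Subgroup.mem_normalizer_fintype (hinv h (Subgroup.subset_closure (by simp))))
      (fun v hv => hqg v (hP0P (hR hv))) (fun v hv => hqh v (hP0P (hR hv))) d hd hd' r hr
  have hP0p : IsPGroup p P0 := hP.to_le hP0P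
  set M := P0 ⊓ F with hM
  have hMp : IsPGroup p M := hP0p.to_le inf_le_left
  have hFinv : ∀ x ∈ Y, ∀ r ∈ F, x * r * x⁻¹ ∈ F := by
    intro x hx r hr
    refine (hFmem _).2 fun d hd hd' => ?_
    have := ((hFmem r).1 hr) (x⁻¹ * d * x) (mul_mem (mul_mem (inv_mem hx) hd) hx) (by
      have e : x⁻¹ * d * x = (MulAut.conj x⁻¹).toMonoidHom d := by simp
      rw [e, orderOf_injective _ (MulAut.conj x⁻¹).injective]; exact hd')
    show d * (x * r * x⁻¹) = x * r * x⁻¹ * d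
    calc d * (x * r * x⁻¹) = x * ((x⁻¹ * d * x) * r) * x⁻¹ := by group
      _ = x * (r * (x⁻¹ * d * x)) * x⁻¹ := by rw [this.eq]
      _ = x * r * x⁻¹ * d := by group
  have hYM : ∀ x ∈ Y, ∀ r ∈ M, x * r * x⁻¹ ∈ M := fun x hx r hr => ⟨hcj x hx r hr.1, hFinv x hx r hr.2⟩
  have hfixM : ∀ d ∈ Y0, ∀ m ∈ M, d * m * d⁻¹ = m := fun d hd m hm =>
    mul_inv_eq_iff_eq_mul.2 ((Subgroup.mem_centralizer_iff.1 hm.2) d hd)
  have hY0Y : Y0 ≤ Y := (Subgroup.closure_le _).2 fun d hd => hd.1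
  -- the derived subgroup is fixed
  haveI := hP0p.isNilpotent
  have hP0ne : Nontrivial P0 := by
    rw [Subgroup.nontrivial_iff_ne_bot]
    rintro rfl
    exact hP0F bot_le
  have hder : ∀ a ∈ P0, ∀ b ∈ P0, ⁅a, b⁆ ∈ M := by
    intro a ha b hb
    have hle : ⁅P0, P0⁆ ≤ P0 := Subgroup.commutator_le.2 fun a ha b hb =>
      mul_mem (mul_mem (mul_mem ha hb) (inv_mem ha)) (inv_mem hb)
    have hne : ⁅P0, P0⁆ ≠ P0 := by
      intro he
      refine (IsSolvable.commutator_lt_top_of_nontrivial P0).ne ?_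
      apply Subgroup.map_injective P0.subtype_injective
      rw [← MonoidHom.range_eq_map, Subgroup.range_subtype, commutator_def, Subgroup.map_commutator,
        ← MonoidHom.range_eq_map, Subgroup.range_subtype, he]
    refine ⟨hle (Subgroup.commutator_mem_commutator ha hb), hsub _ hle hne (fun x hx r hr => ?_)
      (Subgroup.commutator_mem_commutator ha hb)⟩
    have h1 : (⁅P0, P0⁆).map (MulAut.conj x).toMonoidHom ≤ ⁅P0, P0⁆ := by
      rw [Subgroup.map_commutator]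
      exact Subgroup.commutator_mono (by rintro _ ⟨v, hv, rfl⟩; exact hcj x hx v hv)
        (by rintro _ ⟨v, hv, rfl⟩; exact hcj x hx v hv)
    exact h1 ⟨r, hr, rfl⟩
  have hMnorm : ∀ v ∈ P0, ∀ m ∈ M, v * m * v⁻¹ ∈ M := fun v hv m hm => by
    have := mul_mem (hder v hv m hm.1) hm
    rwa [commutatorElement_def, inv_mul_cancel_right] at this
  have hstab : ∀ v ∈ P0, (∀ d ∈ Y, (orderOf d).Coprime p → d * v * d⁻¹ * v⁻¹ ∈ M) → v ∈ F := by
    intro v hv hd
    refine (hFmem v).2 fun d hdY hd' => ?_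
    exact mul_inv_eq_iff_eq_mul.1 (commute_of_stable hMp hd' (hd d hdY hd')
      (hfixM d (Subgroup.subset_closure ⟨hdY, hd'⟩) _ (hd d hdY hd')))
  have hcen : ∀ m ∈ M, ∀ v ∈ P0, Commute m v := by
    let R := P0 ⊓ Subgroup.centralizer (M : Set X)
    have hR : R = P0 := by
      by_contra hne
      have hRinv : ∀ x ∈ Y, ∀ r ∈ R, x * r * x⁻¹ ∈ R := fun x hx r hr =>
        ⟨hcj x hx r hr.1, Subgroup.mem_centralizer_iff.2 fun m hm => by
          have h1 := (Subgroup.mem_centralizer_iff.1 hr.2) _ (by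
            simpa using hYM x⁻¹ (inv_mem hx) m hm : x⁻¹ * m * x ∈ M)
          calc m * (x * r * x⁻¹) = x * ((x⁻¹ * m * x) * r) * x⁻¹ := by group
            _ = x * (r * (x⁻¹ * m * x)) * x⁻¹ := by rw [h1]
            _ = x * r * x⁻¹ * m := by group⟩
      have hRF := hsub R inf_le_left hne hRinv
      refine hP0F fun v hv => hstab v hv fun d hdY hd' => ?_
      have hd0 : d ∈ Y0 := Subgroup.subset_closure ⟨hdY, hd'⟩
      have hu : v⁻¹ * (d * v * d⁻¹) ∈ R := by
        refine ⟨P0.mul_mem (P0.inv_mem hv) (hcj d hdY v hv), Subgroup.mem_centralizer_iff.2 fun m hm => ?_⟩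
        have h1 := hfixM d hd0 m hm
        have h2 := hfixM d hd0 _ (hMnorm v hv m hm)
        have h3 : d * v * d⁻¹ * m * (d * v * d⁻¹)⁻¹ = v * m * v⁻¹ := by
          conv_lhs => rw [← h1]
          conv_rhs => rw [← h2]
          group
        calc m * (v⁻¹ * (d * v * d⁻¹)) = v⁻¹ * (v * m * v⁻¹) * (d * v * d⁻¹) := by group
          _ = v⁻¹ * (d * v * d⁻¹ * m * (d * v * d⁻¹)⁻¹) * (d * v * d⁻¹) := by rw [h3]
          _ = v⁻¹ * (d * v * d⁻¹) * m := by group
      have := hMnorm v hv _ ⟨hu.1, hRF hu⟩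
      rwa [show v * (v⁻¹ * (d * v * d⁻¹)) * v⁻¹ = d * v * d⁻¹ * v⁻¹ by group] at this
    intro m hm v hv
    exact (Subgroup.mem_centralizer_iff.1 (hR.symm ▸ hv : v ∈ R).2) m hm
  have hirrG : ∀ R : Subgroup X, M ≤ R → R ≤ P0 → (∀ x ∈ Y, ∀ r ∈ R, x * r * x⁻¹ ∈ R) →
      R = M ∨ R = P0 := by
    intro R hMR hRP hinv
    by_contra hne
    push Not at hne
    exact hne.1 (le_antisymm (le_inf hRP (hsub R hRP hne.2 hinv)) hMR)
  -- exponent
  let M' : Subgroup P0 := M.subgroupOf P0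
  haveI : M'.Normal := ⟨fun m hm v => hMnorm v v.2 m hm⟩
  letI : CommGroup (P0 ⧸ M') := { (inferInstance : Group (P0 ⧸ M')) with
    mul_comm := by
      rintro ⟨a⟩ ⟨b⟩
      refine QuotientGroup.eq.2 ?_
      show ((a * b)⁻¹ * (b * a) : P0) ∈ M'
      have := hder _ (inv_mem b.2) _ (inv_mem a.2)
      rw [Subgroup.mem_subgroupOf]
      simpa [commutatorElement_def, mul_assoc] using this }
  let cjh : ∀ x ∈ Y, P0 →* P0 := fun x hx =>
    { toFun := fun v => ⟨x * v * x⁻¹, hcj x hx v v.2⟩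
      map_one' := Subtype.ext (by simp)
      map_mul' := fun a b => Subtype.ext (by simp [mul_assoc]) }
  have hexp : ∀ v ∈ P0, v ^ p ∈ M := by
    let R := ((powMonoidHom p : P0 ⧸ M' →* P0 ⧸ M').ker.comap (QuotientGroup.mk' M')).map P0.subtype
    have hRmem : ∀ v : P0, (v : X) ∈ R ↔ (v : X) ^ p ∈ M := by
      intro v
      rw [show (v : X) = P0.subtype v from rfl, Subgroup.mem_map_iff_mem P0.subtype_injective,
        Subgroup.mem_comap, MonoidHom.mem_ker, powMonoidHom_apply, ← map_pow,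
        QuotientGroup.mk'_apply, QuotientGroup.eq_one_iff, Subgroup.mem_subgroupOf]
      rfl
    have hRP : R ≤ P0 := Subgroup.map_subtype_le _
    have hR : R = P0 := by
      rcases hirrG R (fun m hm => (hRmem ⟨m, hm.1⟩).2 (pow_mem hm p)) hRP (fun x hx r hr => by
        refine (hRmem ⟨_, hcj x hx r (hRP hr)⟩).2 ?_
        show (x * r * x⁻¹) ^ p ∈ M
        rw [conj_pow]
        exact hYM x hx _ ((hRmem ⟨r, hRP hr⟩).1 hr)) with h1 | h1
      · exfalso
        apply hP0F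
        intro v hv
        suffices v ∈ M from this.2
        obtain ⟨k, hk⟩ := hP0p ⟨v, hv⟩
        have : ∀ j, v ^ p ^ j ∈ M → v ∈ M := by
          intro j
          induction j with
          | zero => simp
          | succ j ih =>
            intro hj
            refine ih (h1.le ((hRmem ⟨_, pow_mem hv (p ^ j)⟩).2 ?_))
            rwa [← pow_mul, ← pow_succ]
        exact this k (by rw [show v ^ p ^ k = 1 from congrArg Subtype.val hk]; exact one_mem _)
      · exact h1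
    exact fun v hv => (hRmem ⟨v, hv⟩).1 (hR.symm ▸ hv)
  -- the representation on `P0 / M`
  let A := Additive (P0 ⧸ M')
  let mk : P0 → A := fun v => Additive.ofMul (v : P0 ⧸ M')
  have hmk : ∀ a b : P0, mk a = mk b ↔ (a : X)⁻¹ * b ∈ M := fun a b => QuotientGroup.eq
  have hmk0 : ∀ a : P0, mk a = 0 ↔ (a : X) ∈ M := fun a => QuotientGroup.eq_one_iff a
  have hmk1 : ∀ a b : P0, mk a = mk b ↔ (b : X) * (a : X)⁻¹ ∈ M := fun a b => by
    rw [hmk]
    exact ⟨fun h => by simpa [mul_assoc] using hMnorm _ a.2 _ h,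
      fun h => by simpa [mul_assoc] using hMnorm _ (inv_mem a.2) _ h⟩
  let ρ : Y →* AddMonoid.End A :=
    { toFun := fun x => (QuotientGroup.map M' M' (cjh x x.2) (fun m hm => hYM x x.2 m hm)).toAdditive
      map_one' := by
        refine AddMonoidHom.ext ?_
        rintro ⟨v⟩
        exact congrArg mk (Subtype.ext (by simp [cjh]) : cjh 1 (one_mem _) v = v)
      map_mul' := fun a b => by
        refine AddMonoidHom.ext ?_
        rintro ⟨v⟩
        exact congrArg mk (Subtype.ext (by simp [cjh, mul_assoc]) :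
          cjh (a * b : Y) (a * b).2 v = cjh a a.2 (cjh b b.2 v)) }
  have hρ : ∀ (x : Y) (v : P0), ρ x (mk v) = mk ⟨(x : X) * v * (x : X)⁻¹, hcj x x.2 v v.2⟩ :=
    fun x v => rfl
  have hAp : ∀ a : A, p • a = 0 := by
    rintro ⟨v⟩
    exact (hmk0 (v ^ p)).2 (hexp v v.2)
  have hquad : ∀ (x : Y), (∀ v ∈ P, ∀ d ∈ Y, (orderOf d).Coprime p → Commute d ⁅⁅v, (x : X)⁆, (x : X)⁆) →
      (ρ x - 1) * (ρ x - 1) = 0 := by
    intro x hx
    refine AddMonoidHom.ext ?_
    rintro ⟨v⟩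
    show ρ x (ρ x (mk v) - mk v) - (ρ x (mk v) - mk v) = 0
    rw [hρ]
    have hw : ⁅(v : X), (x : X)⁆ ∈ P0 := by
      have := mul_mem v.2 (hcj x x.2 _ (inv_mem v.2))
      simpa [commutatorElement_def, mul_assoc] using this
    have he : mk ⟨(x : X) * v * (x : X)⁻¹, hcj x x.2 v v.2⟩ - mk v =
        mk ⟨⁅(v : X), (x : X)⁆⁻¹, inv_mem hw⟩ := by
      rw [sub_eq_iff_eq_add]
      refine congrArg mk (Subtype.ext ?_ : (⟨_, hcj x x.2 v v.2⟩ : P0) = ⟨_, inv_mem hw⟩ * v)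
      simp [commutatorElement_def, mul_assoc]
    rw [he, hρ, sub_eq_zero, hmk1]
    refine ⟨?_, ?_⟩
    · exact P0.mul_mem (P0.inv_mem hw) (P0.inv_mem (hcj x x.2 _ (P0.inv_mem hw)))
    · have h1 := inv_mem ((hFmem _).2 fun d hd hd' => hx v (hP0P v.2) d hd hd')
      have h2 := hMnorm _ (inv_mem hw) _ ⟨?_, h1⟩
      · simpa [commutatorElement_def, mul_assoc] using h2.2
      · refine P0.inv_mem ?_
        have := P0.mul_mem hw (hcj x x.2 _ (inv_mem hw))
        simpa [commutatorElement_def, mul_assoc] using this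
  let gY : Y := ⟨g, Subgroup.subset_closure (by simp)⟩
  let hY' : Y := ⟨h, Subgroup.subset_closure (by simp)⟩
  set α := ρ gY - 1 with hαdef
  set β := ρ hY' - 1 with hβdef
  have hα : α * α = 0 := hquad gY hqg
  have hβ : β * β = 0 := hquad hY' hqh
  have hρg : ρ gY = 1 + α := by rw [hαdef]; abel
  have hρh : ρ hY' = 1 + β := by rw [hβdef]; abel
  have hEp : ∀ f : AddMonoid.End A, p • f = 0 := fun f => AddMonoidHom.ext fun a => hAp (f a)
  have hmon : ∀ y : Y, ρ y ∈ Submonoid.closure ({ρ gY, ρ hY'} : Set (AddMonoid.End A)) := by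
    rintro ⟨y, hy⟩
    have hy' : y ∈ Submonoid.closure ({g, h} : Set X) := by
      rw [← Subgroup.closure_toSubmonoid_of_finite]; exact hy
    induction hy' using Submonoid.closure_induction with
    | mem z hz => rcases hz with rfl | rfl <;> exact Submonoid.subset_closure (by simp [gY, hY'])
    | one => exact (map_one ρ).symm ▸ one_mem _
    | mul a b ha hb iha ihb =>
      have ha' : a ∈ Y := by
        rw [hY, ← Subgroup.mem_toSubmonoid, Subgroup.closure_toSubmonoid_of_finite]; exact ha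
      have hb' : b ∈ Y := by
        rw [hY, ← Subgroup.mem_toSubmonoid, Subgroup.closure_toSubmonoid_of_finite]; exact hb
      rw [show (⟨a * b, _⟩ : Y) = ⟨a, ha'⟩ * ⟨b, hb'⟩ from rfl, map_mul]
      exact mul_mem (iha ha') (ihb hb')
  have hα0 : α ≠ 0 := by
    intro h0
    apply hP0F
    intro v hv
    refine hstab v hv fun d hdY hd' => ?_
    have h1 : ρ ⟨d, hdY⟩ = 1 := by
      have h2 := hmon ⟨d, hdY⟩
      rw [hρg, h0, add_zero, Submonoid.closure_insert_one, Submonoid.mem_closure_singleton] at h2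
      obtain ⟨n, hn⟩ := h2
      have h3 : ρ ⟨d, hdY⟩ ^ p = 1 := by
        rw [← hn, ← pow_mul, mul_comm, pow_mul, hρh, one_add_pow hβ, hEp, add_zero, one_pow]
      have h4 : ρ ⟨d, hdY⟩ ^ orderOf d = 1 := by
        rw [← map_pow, ← map_one ρ]
        exact congrArg ρ (Subtype.ext (by simp [pow_orderOf_eq_one]))
      exact orderOf_eq_one_iff.1 (Nat.eq_one_of_dvd_coprimes hd'
        (orderOf_dvd_of_pow_eq_one h4) (orderOf_dvd_of_pow_eq_one h3))
    refine (hmk1 ⟨v, hv⟩ ⟨d * v * d⁻¹, hcj d hdY v hv⟩).1 ?_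
    rw [← hρ ⟨d, hdY⟩ ⟨v, hv⟩, h1]
    rfl
  have hirr : ∀ W : AddSubgroup A, (∀ x ∈ W, α x ∈ W) → (∀ x ∈ W, β x ∈ W) → W = ⊥ ∨ W = ⊤ := by
    intro W hWa hWb
    let R := ((AddSubgroup.toSubgroup' W).comap (QuotientGroup.mk' M')).map P0.subtype
    have hRP : R ≤ P0 := Subgroup.map_subtype_le _
    have hRmem : ∀ v : P0, (v : X) ∈ R ↔ mk v ∈ W := fun v =>
      Subgroup.mem_map_iff_mem P0.subtype_injective
    have hn : ∀ x : Y, (∀ a ∈ W, (ρ x - 1) a ∈ W) → (x : X) ∈ Subgroup.normalizer (R : Set X) := by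
      intro x hx
      refine Subgroup.mem_normalizer_fintype fun r hr => ?_
      refine (hRmem ⟨_, hcj x x.2 r (hRP hr)⟩).2 ?_
      rw [← hρ x ⟨r, hRP hr⟩]
      have h1 := hx _ ((hRmem ⟨r, hRP hr⟩).1 hr)
      have h2 := add_mem h1 ((hRmem ⟨r, hRP hr⟩).1 hr)
      convert h2 using 1
      exact (sub_add_cancel _ _).symm
    have hYR := hYle (hn gY hWa) (hn hY' hWb)
    rcases hirrG R (fun m hm => (hRmem ⟨m, hm.1⟩).2 ((hmk0 ⟨m, hm.1⟩).2 hm ▸ zero_mem _)) hRP
      (fun x hx r hr => (Subgroup.mem_normalizer_iff.1 (hYR hx) r).1 hr) with e | e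
    · refine Or.inl (eq_bot_iff.2 ?_)
      rintro ⟨v⟩ hv
      exact AddSubgroup.mem_bot.2 ((hmk0 v).2 (e.le ((hRmem v).2 hv)))
    · refine Or.inr (eq_top_iff.2 ?_)
      rintro ⟨v⟩ -
      exact (hRmem v).1 (e.symm ▸ v.2)
  obtain ⟨γ, hγ, hαγ, hmem⟩ := exists_dual_quadratic hp2 hAp hα hβ hα0 hirr
  rw [← hρg, ← hρh, ← Set.image_pair, ← MonoidHom.map_mclosure] at hmem
  obtain ⟨eY, -, hρe⟩ := hmem
  -- lifting into the subgroup generated by `p'`-elements
  have hlift : ∀ (y : Y) (N : ℕ), N.Coprime p → ρ y ^ N = 1 → ∃ z : Y, (z : X) ∈ Y0 ∧ ρ z = ρ y := by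
    intro y N hN hy
    obtain ⟨k, hk⟩ := exists_pow_coprime_orderOf (p := p) (isOfFinOrder_of_finite (y : X))
    have hcop : (p ^ k).Coprime (orderOf (ρ y)) :=
      (Nat.Coprime.coprime_dvd_left (orderOf_dvd_of_pow_eq_one hy) hN).symm.pow_left k
    obtain ⟨j, hj⟩ := exists_pow_eq_self_of_coprime hcop
    refine ⟨(y ^ p ^ k) ^ j, ?_, by rw [map_pow, map_pow, hj]⟩
    rw [Subgroup.coe_pow, Subgroup.coe_pow]
    exact Y0.pow_mem (Subgroup.subset_closure ⟨pow_mem y.2 _, hk⟩) _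
  have hn1 : ∀ a : AddMonoid.End A, (-1) * a = -a := fun a => AddMonoidHom.ext fun _ => rfl
  have hn2 : ∀ a : AddMonoid.End A, a * (-1) = -a := fun a => AddMonoidHom.ext fun x => map_neg a x
  have hpodd : Odd p := hp.out.odd_of_ne_two hp2
  have hneg : ∀ {ε : AddMonoid.End A}, ε * ε = 0 → (1 + ε) ^ (p - 1) = 1 - ε := by
    intro ε hε
    rw [one_add_pow hε, sub_eq_add_neg]
    congr 1
    rw [eq_neg_iff_add_eq_zero, ← succ_nsmul, show p - 1 + 1 = p by omega, hEp]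
  have hcop4 : Nat.Coprime 4 p := by
    rw [show 4 = 2 ^ 2 by norm_num]
    exact ((Nat.coprime_primes Nat.prime_two hp.out).2 (Ne.symm hp2)).pow_left 2
  obtain ⟨hsq, hw, -⟩ := units_rel hα hγ hαγ
  set w := gY * eY ^ (p - 1) * gY with hwdef
  have hρw : ρ w = α - γ := by rw [hwdef, map_mul, map_mul, map_pow, hρg, hρe, hneg hγ, hw]
  obtain ⟨B, hB0, hρB⟩ := hlift w 4 hcop4 (by
    rw [hρw, show 4 = 2 * 2 by norm_num, pow_mul, sq (α - γ), hsq, sq (-1), hn1, neg_neg])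
  set t := B * B with ht
  have hρt : ρ t = -1 := by rw [ht, map_mul, hρB, hρw, hsq]
  have ht0 : (t : X) ∈ Y0 := mul_mem hB0 hB0
  have hρti : ρ t⁻¹ = -1 := by
    have h1 := map_mul ρ t t⁻¹
    rw [mul_inv_cancel, map_one, hρt, hn1] at h1
    exact (neg_eq_iff_eq_neg.1 h1.symm)
  have htM : ∀ v ∈ P0, (t : X) * v * (t : X)⁻¹ * v ∈ M := fun v hv => by
    have := (hmk1 ⟨v⁻¹, inv_mem hv⟩ ⟨_, hcj t t.2 v hv⟩).1 (by rw [← hρ t ⟨v, hv⟩, hρt]; rfl)
    simpa using this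
  have hY0n : ∀ (x : Y) (d : X), d ∈ Y0 → (x : X)⁻¹ * d * x ∈ Y0 := by
    intro x d hd
    have hle : Y0.map (MulAut.conj (x : X)⁻¹).toMonoidHom ≤ Y0 := by
      nth_rw 1 [hY0]
      rw [MonoidHom.map_closure, Subgroup.closure_le]
      rintro _ ⟨e, ⟨he, he'⟩, rfl⟩
      refine Subgroup.subset_closure ⟨?_, ?_⟩
      · show (x : X)⁻¹ * e * (x : X)⁻¹⁻¹ ∈ Y
        exact mul_mem (mul_mem (inv_mem x.2) he) (inv_mem (inv_mem x.2))
      · rw [orderOf_injective _ (MulAut.conj (x : X)⁻¹).injective]; exact he'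
    simpa using hle ⟨d, hd, rfl⟩
  have hstep : ∀ (ε : AddMonoid.End A) (g2 : Y), ρ g2 = 1 + ε →
      ∃ x : Y, ρ x = 1 + ε ∧ ∀ v ∈ P0, (t : X) * ((x : X) * v * (x : X)⁻¹) * (t : X)⁻¹ =
        (x : X) * ((t : X) * v * (t : X)⁻¹) * (x : X)⁻¹ := by
    intro ε g2 hρg2
    set k := g2⁻¹ * t * g2 * t⁻¹ with hkdef
    have hρk : ρ k = 1 := by
      rw [hkdef, map_mul, map_mul, map_mul, hρt, hρti, hn2 (ρ g2⁻¹), ← hn1 (ρ g2⁻¹), mul_assoc (-1),
        ← map_mul, inv_mul_cancel, map_one, mul_one, hn2, neg_neg]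
    have hk0 : (k : X) ∈ Y0 := mul_mem (hY0n g2 t ht0) (inv_mem ht0)
    have hkM : ∀ v ∈ P0, (k : X) * v * (k : X)⁻¹ * v⁻¹ ∈ M := fun v hv =>
      (hmk1 ⟨v, hv⟩ ⟨_, hcj k k.2 v hv⟩).1 (by rw [← hρ k ⟨v, hv⟩, hρk]; rfl)
    have htM : ∀ v ∈ P0, (t : X) * v * (t : X)⁻¹ * v ∈ M := fun v hv => by
      have := (hmk1 ⟨v⁻¹, inv_mem hv⟩ ⟨_, hcj t t.2 v hv⟩).1 (by rw [← hρ t ⟨v, hv⟩, hρt]; rfl)
      simpa using this
    set dl : X → X := fun v => (k : X) * v * (k : X)⁻¹ * v⁻¹ with hdl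
    have hkpow : ∀ v ∈ P0, ∀ n : ℕ, (k : X) ^ n * v * ((k : X) ^ n)⁻¹ = dl v ^ n * v := by
      intro v hv n
      induction n with
      | zero => simp
      | succ n ih =>
        rw [pow_succ' (k : X), show (k : X) * (k : X) ^ n * v * ((k : X) * (k : X) ^ n)⁻¹ =
          (k : X) * ((k : X) ^ n * v * ((k : X) ^ n)⁻¹) * (k : X)⁻¹ by group, ih,
          show (k : X) * (dl v ^ n * v) * (k : X)⁻¹ =
            ((k : X) * dl v ^ n * (k : X)⁻¹) * ((k : X) * v * (k : X)⁻¹) by group,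
          hfixM _ hk0 _ (pow_mem (hkM v hv) n), pow_succ, mul_assoc]
        simp only [hdl]
        group
    have hdlp : ∀ v ∈ P0, dl v ^ p = 1 := by
      intro v hv
      have h1 := hfixM _ hk0 _ (hexp v hv)
      rw [← conj_pow, show (k : X) * v * (k : X)⁻¹ = dl v * v by simp [hdl],
        (hcen _ (hkM v hv) v hv).mul_pow, mul_eq_right] at h1
      exact h1
    obtain ⟨j, hj⟩ : ∃ j, j + j = p + 1 := by
      obtain ⟨i, hi⟩ := hpodd
      exact ⟨i + 1, by omega⟩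
    set g3 := g2 * k ^ j with hg3
    have hρg3 : ρ g3 = 1 + ε := by rw [hg3, map_mul, map_pow, hρk, one_pow, mul_one, hρg2]
    have hcomm : ∀ v ∈ P0, (t : X) * ((g3 : X) * v * (g3 : X)⁻¹) * (t : X)⁻¹ =
        (g3 : X) * ((t : X) * v * (t : X)⁻¹) * (g3 : X)⁻¹ := by
      intro v hv
      set u := (t : X) * v * (t : X)⁻¹ with hu
      have huP : u ∈ P0 := hcj t t.2 v hv
      have hdlu : dl u = (dl v)⁻¹ := by
        obtain ⟨m, hm, hue⟩ : ∃ m ∈ M, u = m * v⁻¹ := ⟨u * v, htM v hv, by group⟩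
        have hc := hcen _ (hkM v hv) v hv
        simp only [hdl]
        rw [hue, show (k : X) * (m * v⁻¹) * (k : X)⁻¹ =
          ((k : X) * m * (k : X)⁻¹) * ((k : X) * v * (k : X)⁻¹)⁻¹ by group, hfixM _ hk0 m hm]
        have e := hcen m hm ((k : X) * v * (k : X)⁻¹) (hcj k k.2 v hv)
        have e2 := hcen m hm v hv
        calc m * ((k : X) * v * (k : X)⁻¹)⁻¹ * (m * v⁻¹)⁻¹
            = (m * ((k : X) * v * (k : X)⁻¹)⁻¹) * (v * m⁻¹) := by group
          _ = (((k : X) * v * (k : X)⁻¹)⁻¹ * m) * (m⁻¹ * v) := by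
              rw [e.inv_right.eq, e2.symm.inv_right.eq]
          _ = ((k : X) * v * (k : X)⁻¹)⁻¹ * v := by group
          _ = v⁻¹ * (dl v)⁻¹ * v := by simp [hdl, mul_assoc]
          _ = (dl v)⁻¹ := by
              rw [show v⁻¹ * (dl v)⁻¹ = (dl v)⁻¹ * v⁻¹ from hc.inv_inv.symm.eq, inv_mul_cancel_right]
      have hj2 : dl v ^ j = (dl v ^ j)⁻¹ * dl v := by
        rw [eq_inv_mul_iff_mul_eq, ← pow_add, hj, pow_succ, hdlp v hv, one_mul]
      have hL : (g3 : X) * v * (g3 : X)⁻¹ = (g2 : X) * (dl v ^ j * v) * (g2 : X)⁻¹ := by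
        rw [← hkpow v hv j, hg3, Subgroup.coe_mul, Subgroup.coe_pow]
        group
      have hR : (g3 : X) * u * (g3 : X)⁻¹ = (g2 : X) * ((dl v ^ j)⁻¹ * u) * (g2 : X)⁻¹ := by
        rw [← inv_pow, ← hdlu, ← hkpow u huP j, hg3, Subgroup.coe_mul, Subgroup.coe_pow]
        group
      have hdM : dl v ^ j ∈ M := pow_mem (hkM v hv) j
      have hkt : (t : X) * (g2 : X) = (g2 : X) * (k : X) * (t : X) := by
        rw [hkdef]; simp only [Subgroup.coe_mul, Subgroup.coe_inv]; group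
      rw [hL, hR]
      calc (t : X) * ((g2 : X) * (dl v ^ j * v) * (g2 : X)⁻¹) * (t : X)⁻¹
          = ((t : X) * (g2 : X)) * (dl v ^ j * v) * ((t : X) * (g2 : X))⁻¹ := by group
        _ = (g2 : X) * ((k : X) * ((t : X) * dl v ^ j * (t : X)⁻¹) * (k : X)⁻¹ *
            ((k : X) * u * (k : X)⁻¹)) * (g2 : X)⁻¹ := by rw [hkt, hu]; group
        _ = (g2 : X) * (dl v ^ j * (dl u * u)) * (g2 : X)⁻¹ := by
            rw [hfixM _ ht0 _ hdM, hfixM _ hk0 _ hdM]
            simp [hdl, mul_assoc]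
        _ = (g2 : X) * ((dl v ^ j)⁻¹ * u) * (g2 : X)⁻¹ := by
            have e : dl v ^ j * (dl v)⁻¹ = (dl v ^ j)⁻¹ := by
              conv_lhs => rw [hj2]
              group
            rw [hdlu, ← mul_assoc (dl v ^ j), e]
    exact ⟨g3, hρg3, hcomm⟩
  obtain ⟨x1, hρ1, hc1⟩ := hstep α gY hρg
  obtain ⟨x2, hρ2, hc2⟩ := hstep γ eY hρe
  -- a vector in the image of `γ`
  have hαα : ∀ z, α (α z) = 0 := fun z => congrArg (fun q : AddMonoid.End A => q z) hα
  have hγγ : ∀ z, γ (γ z) = 0 := fun z => congrArg (fun q : AddMonoid.End A => q z) hγ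
  have hsum : ∀ z, α (γ z) + γ (α z) = z := fun z => congrArg (fun q : AddMonoid.End A => q z) hαγ
  obtain ⟨z0, hz0⟩ : ∃ z, α z ≠ 0 := by
    by_contra hall
    push Not at hall
    exact hα0 (AddMonoidHom.ext hall)
  obtain ⟨v0, hv0⟩ : ∃ v, v = γ (α z0) := ⟨_, rfl⟩
  have hαv : α v0 = α z0 := by
    have := hsum (α z0)
    rw [hαα, map_zero, add_zero] at this
    rw [hv0]; exact this
  have hγv : γ v0 = 0 := by rw [hv0]; exact hγγ _
  have hγαv : γ (α v0) = v0 := by rw [hαv, hv0]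
  -- inverted representatives
  have hrep : ∀ z : A, ∃ y : P0, mk y = z ∧ (t : X) * y * (t : X)⁻¹ = (y : X)⁻¹ := by
    rintro ⟨v⟩
    obtain ⟨μ, hμ, htv⟩ : ∃ μ ∈ M, (t : X) * v * (t : X)⁻¹ = μ * (v : X)⁻¹ :=
      ⟨_, htM v v.2, by group⟩
    obtain ⟨i, hi⟩ := hMp ⟨μ, hμ⟩
    obtain ⟨j, hj⟩ := exists_pow_eq_self_of_coprime (show (2 : ℕ).Coprime (orderOf μ) from
      Nat.Coprime.coprime_dvd_right (orderOf_dvd_of_pow_eq_one (congrArg Subtype.val hi))
        (((Nat.coprime_primes Nat.prime_two hp.out).2 (Ne.symm hp2)).pow_right i))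
    obtain ⟨m, hm⟩ : ∃ m, m = (μ ^ j)⁻¹ := ⟨_, rfl⟩
    have hmM : m ∈ M := hm ▸ inv_mem (pow_mem hμ j)
    have hm2 : μ = (m * m)⁻¹ := by
      rw [hm, ← mul_inv_rev, inv_inv, ← pow_add, ← two_mul, pow_mul, hj]
    refine ⟨⟨v * m, mul_mem v.2 hmM.1⟩, ((hmk v ⟨v * m, mul_mem v.2 hmM.1⟩).2 ?_).symm, ?_⟩
    · show (v : X)⁻¹ * (v * m) ∈ M
      rw [inv_mul_cancel_left]; exact hmM
    · show (t : X) * ((v : X) * m) * (t : X)⁻¹ = ((v : X) * m)⁻¹
      calc (t : X) * ((v : X) * m) * (t : X)⁻¹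
          = ((t : X) * v * (t : X)⁻¹) * ((t : X) * m * (t : X)⁻¹) := by group
        _ = μ * ((v : X)⁻¹ * m) := by rw [htv, hfixM _ ht0 _ hmM, mul_assoc]
        _ = (m * m)⁻¹ * (m * (v : X)⁻¹) := by
            rw [hm2, (hcen m hmM (v : X) v.2).inv_right.eq]
        _ = ((v : X) * m)⁻¹ := by group
  obtain ⟨x, hxv, hxinv⟩ := hrep v0
  obtain ⟨a, hav, hainv⟩ := hrep (α v0)
  have hpair : InvertedPair p P0 M (t : X) x a :=
    ⟨hMp, hcen, hder, hexp, fun m hm => hfixM _ ht0 m hm, x.2, a.2, hxinv, hainv⟩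
  have hzpow : ∀ (y : P0) (i : ℤ) (m : X) (hm : m ∈ M),
      mk (⟨(y : X) ^ i * m, mul_mem (zpow_mem y.2 i) hm.1⟩ : P0) = i • mk y := by
    intro y i m hm
    have e : (⟨(y : X) ^ i * m, mul_mem (zpow_mem y.2 i) hm.1⟩ : P0) = y ^ i * ⟨m, hm.1⟩ :=
      Subtype.ext (by simp)
    rw [e]
    show mk (y ^ i) + mk ⟨m, hm.1⟩ = _
    rw [(hmk0 ⟨m, hm.1⟩).2 hm, add_zero]
    rfl
  have hxa : ∀ (i : ℤ) (m : X), m ∈ M → (x : X) ≠ (a : X) ^ i * m := by
    intro i m hm he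
    have e : v0 = i • α v0 :=
      hxv.symm.trans (((congrArg mk (Subtype.ext he)).trans (hzpow a i m hm)).trans
        (congrArg (i • ·) hav))
    have h1 : α v0 = 0 := by rw [e, map_zsmul, hαα, zsmul_zero]
    exact hz0 (hαv ▸ h1)
  have hax : ∀ (i : ℤ) (m : X), m ∈ M → (a : X) ≠ (x : X) ^ i * m := by
    intro i m hm he
    have e : α v0 = i • v0 :=
      hav.symm.trans (((congrArg mk (Subtype.ext he)).trans (hzpow x i m hm)).trans
        (congrArg (i • ·) hxv))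
    have h1 : v0 = 0 := by rw [← hγαv, e, map_zsmul, hγv, zsmul_zero]
    exact hz0 (by rw [← hαv, h1, map_zero])
  -- the images of the representatives
  have hfix' : ∀ (u : Y) (ε : AddMonoid.End A) (y : P0), ρ u = 1 + ε → ε (mk y) = 0 →
      ∃ m ∈ M, (u : X) * y * (u : X)⁻¹ = y * m := by
    intro u ε y hu he
    refine ⟨(y : X)⁻¹ * ((u : X) * y * (u : X)⁻¹), (hmk y ⟨_, hcj u u.2 y y.2⟩).1 ?_,
      (mul_inv_cancel_left _ _).symm⟩
    rw [← hρ u y, hu]
    show mk y = mk y + ε (mk y)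
    rw [he, add_zero]
  have hmove : ∀ (u : Y) (ε : AddMonoid.End A) (y z : P0), ρ u = 1 + ε → ε (mk y) = mk z →
      ∃ (e : ℤ) (m : X), m ∈ M ∧ (u : X) * y * (u : X)⁻¹ = (z : X) ^ e * y * m := by
    intro u ε y z hu he
    refine ⟨1, ((z : X) * y)⁻¹ * ((u : X) * y * (u : X)⁻¹), (hmk (z * y) ⟨_, hcj u u.2 y y.2⟩).1 ?_,
      by rw [zpow_one, mul_inv_cancel_left]⟩
    rw [← hρ u y, hu]
    show mk z + mk y = mk y + ε (mk y)
    rw [he, add_comm]
  obtain ⟨hn1', hq1⟩ := hpair.quadratic hp2 (hcj x1 x1.2) hc1 hxa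
    (hfix' x1 α a hρ1 (by rw [hav]; exact hαα _)) (hmove x1 α x a hρ1 (by rw [hxv, hav]))
  obtain ⟨hn2', hq2⟩ := hpair.symm.quadratic hp2 (hcj x2 x2.2) hc2 hax
    (hfix' x2 γ x hρ2 (by rw [hxv]; exact hγv)) (hmove x2 γ a x hρ2 (by rw [hxv, hav]; exact hγαv))
  rw [Set.pair_comm] at hn2' hq2
  obtain ⟨H, hH⟩ : ∃ H, H = Subgroup.closure ({(x : X), (a : X)} : Set X) := ⟨_, rfl⟩
  rw [← hH] at hn1' hn2' hq1 hq2
  have hHp : IsPGroup p H := hP0p.to_le (hH ▸ (Subgroup.closure_le _).2 (by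
    rintro _ (rfl | rfl); exacts [x.2, a.2]))
  set C := (Subgroup.centralizer (H : Set X)).subgroupOf (Subgroup.normalizer (H : Set X))
  haveI : C.Normal := by
    rw [show C = (Subgroup.normalizerMonoidHom H).ker from (Subgroup.normalizerMonoidHom_ker H).symm]
    infer_instance
  let π := QuotientGroup.mk' C
  let n1 : Subgroup.normalizer (H : Set X) := ⟨x1, hn1'⟩
  let n2 : Subgroup.normalizer (H : Set X) := ⟨x2, hn2'⟩
  have hm1 : π n1 ∈ pCore p _ := hst H hHp _ n1.2 (CfsgLib.ThompsonJ.quadratic_zpowers_iff.2 hq1)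
  have hm2 : π n2 ∈ pCore p _ := hst H hHp _ n2.2 (CfsgLib.ThompsonJ.quadratic_zpowers_iff.2 hq2)
  have hmem : π ((n1 * n2 ^ (p - 1) * n1) * (n1 * n2 ^ (p - 1) * n1)) ∈ pCore p _ := by
    simp only [map_mul, map_pow]
    exact mul_mem (mul_mem (mul_mem hm1 (pow_mem hm2 _)) hm1) (mul_mem (mul_mem hm1 (pow_mem hm2 _)) hm1)
  obtain ⟨i, hi⟩ := CfsgLib.Cores.isPGroup_pCore p _ ⟨_, hmem⟩
  have hi' : ((((n1 * n2 ^ (p - 1) * n1) * (n1 * n2 ^ (p - 1) * n1)) ^ p ^ i :
      Subgroup.normalizer (H : Set X)) : X) ∈ Subgroup.centralizer (H : Set X) := by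
    refine Subgroup.mem_subgroupOf.1 ((QuotientGroup.eq_one_iff _).1 ?_ : _ ∈ C)
    have := congrArg Subtype.val hi
    simpa [π, map_pow] using this
  set s : Y := (x1 * x2 ^ (p - 1) * x1) * (x1 * x2 ^ (p - 1) * x1) with hs
  have hρs : ρ s = -1 := by
    simp only [hs, map_mul, map_pow, hρ1, hρ2, hneg hγ, hw, hsq]
  have h1 : ρ (s ^ p ^ i) (mk x) = mk x := by
    rw [hρ]
    refine congrArg mk (Subtype.ext ?_)
    have h2 := (Subgroup.mem_centralizer_iff.1 hi') x (hH ▸ Subgroup.subset_closure (by simp))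
    exact mul_inv_eq_iff_eq_mul.2 (by simpa [hs, n1, n2] using h2.symm)
  rw [map_pow, hρs, (hpodd.pow (n := i)).neg_one_pow (α := AddMonoid.End A), hxv] at h1
  have h2 : v0 = 0 := by
    have h3 : 2 • v0 = 0 := by
      rw [two_nsmul]
      nth_rw 1 [← h1]
      exact neg_add_cancel _
    have hd2 : addOrderOf v0 = 1 := Nat.eq_one_of_dvd_coprimes
      ((Nat.coprime_primes Nat.prime_two hp.out).2 (Ne.symm hp2))
      (addOrderOf_dvd_of_nsmul_eq_zero h3) (addOrderOf_dvd_of_nsmul_eq_zero (hAp _))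
    exact AddMonoid.addOrderOf_eq_one_iff.1 hd2
  exact hz0 (by rw [← hαv, h2, map_zero])

/-- `p`-stability (`p` odd) passes to the quotient by a normal `p`-subgroup that every element of
order prime to `p` centralises. -/
theorem isNormalizerPStable_quotient_of_centralized_odd (hp2 : p ≠ 2) (hst : IsNormalizerPStable p X)
    (Q : Subgroup X) [Q.Normal] (hQ : IsPGroup p Q)
    (hcent : ∀ d : X, (orderOf d).Coprime p → d ∈ Subgroup.centralizer (Q : Set X)) :
    IsNormalizerPStable p (X ⧸ Q) := by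
  classical
  intro Pb hPb gb hgb hq
  let P := Pb.comap (QuotientGroup.mk' Q)
  have hP : IsPGroup p P := hPb.comap_of_ker_isPGroup _ (by rwa [QuotientGroup.ker_mk'])
  have hqb := CfsgLib.ThompsonJ.quadratic_zpowers_iff.1 hq
  set N := Subgroup.normalizer (Pb : Set (X ⧸ Q))
  set C := (Subgroup.centralizer (Pb : Set (X ⧸ Q))).subgroupOf N
  haveI : C.Normal := by
    rw [show C = (Subgroup.normalizerMonoidHom Pb).ker from (Subgroup.normalizerMonoidHom_ker Pb).symm]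
    infer_instance
  let π := QuotientGroup.mk' C
  refine CfsgLib.Subnormal.mem_pCore_of_forall_closure_pair fun q => ?_
  obtain ⟨n, rfl⟩ := QuotientGroup.mk'_surjective C q
  let g' : N := ⟨gb, hgb⟩
  intro r
  have hr : (r : N ⧸ C) ∈ (Subgroup.closure ({g', n * g' * n⁻¹} : Set N)).map π := by
    rw [MonoidHom.map_closure, Set.image_pair, map_mul, map_mul, map_inv]
    exact r.2
  obtain ⟨c, hc, hcr⟩ := hr
  obtain ⟨g, hgeq⟩ := QuotientGroup.mk'_surjective Q gb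
  obtain ⟨m, hmeq⟩ := QuotientGroup.mk'_surjective Q (n : X ⧸ Q)
  have hnorm : ∀ x : X, QuotientGroup.mk' Q x ∈ N → x ∈ Subgroup.normalizer (P : Set X) := fun x hx =>
    Subgroup.mem_normalizer_fintype fun v hv => by
      have := (Subgroup.mem_normalizer_iff.1 hx (QuotientGroup.mk' Q v)).1 hv
      rw [← map_mul, ← map_inv, ← map_mul] at this
      exact this
  have hg : g ∈ Subgroup.normalizer (P : Set X) := hnorm g (by rw [hgeq]; exact hgb)
  have hh : m * g * m⁻¹ ∈ Subgroup.normalizer (P : Set X) := hnorm _ (by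
    rw [map_mul, map_mul, map_inv, hgeq, hmeq]; exact (n * g' * n⁻¹).2)
  have hQd : ∀ (d y : X), QuotientGroup.mk' Q y = 1 → (orderOf d).Coprime p → Commute d y :=
    fun d y hy hd => ((Subgroup.mem_centralizer_iff.1 (hcent d hd)) y
      ((QuotientGroup.eq_one_iff y).1 hy)).symm
  obtain ⟨c', hc', hc'eq⟩ : (c : X ⧸ Q) ∈
      (Subgroup.closure ({g, m * g * m⁻¹} : Set X)).map (QuotientGroup.mk' Q) := by
    rw [MonoidHom.map_closure, Set.image_pair, map_mul, map_mul, map_inv, hgeq, hmeq]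
    have := Subgroup.mem_map_of_mem N.subtype hc
    rwa [MonoidHom.map_closure, Set.image_pair] at this
  obtain ⟨k, hk⟩ := exists_pow_mem_centralizer_of_stable_odd hp2 hst P hP g (m * g * m⁻¹) hg hh
    (fun v hv d _ hd => hQd d _ (by
      rw [map_commutatorElement, map_commutatorElement, hgeq]
      exact hqb _ hv) hd)
    (fun v hv d _ hd => hQd d _ (by
      rw [map_commutatorElement, map_commutatorElement, map_mul, map_mul, map_inv, hgeq, hmeq]
      have hv' : (n : X ⧸ Q)⁻¹ * QuotientGroup.mk' Q v * n ∈ Pb :=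
        (Subgroup.mem_normalizer_iff''.1 n.2 _).1 hv
      have h1 := congrArg (fun t => (n : X ⧸ Q) * t * (n : X ⧸ Q)⁻¹) (hqb _ hv')
      simp only [commutatorElement_def, mul_one, mul_inv_cancel] at h1
      rw [← h1]
      simp only [commutatorElement_def]
      group) hd) c' hc'
  refine ⟨k, Subtype.ext ?_⟩
  rw [SubmonoidClass.coe_pow, ← hcr, ← map_pow]
  refine (QuotientGroup.eq_one_iff _).2 (Subgroup.mem_subgroupOf.2 (Subgroup.mem_centralizer_iff.2 ?_))
  intro vb hvb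
  obtain ⟨v, rfl⟩ := QuotientGroup.mk'_surjective Q vb
  have h1 := congrArg (QuotientGroup.mk' Q) ((Subgroup.mem_centralizer_iff.1 hk) v hvb)
  rw [map_mul, map_mul, map_pow, hc'eq] at h1
  simpa using h1


/-- The `p`-stable groups form a stable class for every odd `p`. -/
theorem isStableClass_isNormalizerPStable_odd (hp2 : p ≠ 2) :
    IsStableClass.{u} p (fun H _ _ => IsNormalizerPStable p H) :=
  ⟨fun _ _ _ M h => isNormalizerPStable_subgroup M h,
    fun _ _ _ Q _ hQ hc h => isNormalizerPStable_quotient_of_centralized_odd hp2 h Q hQ hc,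
    fun _ _ _ h => h⟩

end CfsgLib.FusionBasics.PStable
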