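import Cfsg.Agent.Lib.FusionBasics.PStable.CentralQuotient
import Cfsg.Agent.Lib.FusionBasics.Group
import Cfsg.Agent.Lib.QdFree.Ascend
import Cfsg.Agent.Lib.FusionExamples.Basic

/-!
A `p`-stable fusion system of a finite group (`p` odd) has a normal centric subgroup.
-/

set_option autoImplicit false
set_option linter.style.haveILetI false

open scoped commutatorElement

namespace CfsgLib.FusionBasics.PStable

open Cfsg Cfsg.FusionSystem CfsgLib.PushUp

universe u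

variable {Ω : Type u} [Group Ω] [Finite Ω] {p : ℕ} [hp : Fact p.Prime]

/-- `p`-stability of the fusion system of a group gives `p`-stability of the group, normalizer form. -/
theorem isNormalizerPStable_of_groupFusion (P : Sylow p Ω)
    (hst : ∀ Q : Subgroup Ω, (groupFusionSystem (P : Subgroup Ω)).IsFullyNormalized Q →
      ∀ χ : MulAut ↥Q, χ ∈ (groupFusionSystem (P : Subgroup Ω)).autGroup Q →
        (∀ a : ↥Q, (χ a⁻¹) * a * (χ a⁻¹) * (χ (χ a)) = 1) →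
        χ ∈ ((pCore p ↥((groupFusionSystem (P : Subgroup Ω)).autGroup Q)).map
          ((groupFusionSystem (P : Subgroup Ω)).autGroup Q).subtype : Subgroup (MulAut ↥Q))) :
    IsNormalizerPStable p Ω := by
  intro U hU g hg hq
  obtain ⟨P', hP'⟩ := hU.exists_le_sylow
  obtain ⟨x₀, hx₀⟩ := MulAction.exists_smul_eq Ω P' P
  have hUP : cmap x₀ U ≤ (P : Subgroup Ω) := by
    rintro _ ⟨v, hv, rfl⟩
    rw [← hx₀, Sylow.coe_subgroup_smul]
    exact ⟨v, hP' hv, rfl⟩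
  obtain ⟨Q, hQc, hQn⟩ := CfsgLib.FusionBasics.exists_fullyNormalized hUP
  obtain ⟨-, hQP, x₁, hx₁⟩ := (group_isConj (S := (P : Subgroup Ω))).1 hQc
  obtain ⟨x, hxdef⟩ : ∃ x, x = x₁ * x₀ := ⟨_, rfl⟩
  have hQ : cmap x U = Q := by
    rw [hxdef, cmap_mul]; exact hx₁
  have hxN : ∀ n ∈ Subgroup.normalizer (U : Set Ω), x * n * x⁻¹ ∈ Subgroup.normalizer (Q : Set Ω) := by
    intro n hn
    rw [← hQ]
    exact Subgroup.le_normalizer_map (MulAut.conj x).toMonoidHom ⟨n, hn, rfl⟩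
  let F := groupFusionSystem (P : Subgroup Ω)
  let ψ : Subgroup.normalizer (U : Set Ω) →* Subgroup.normalizer (Q : Set Ω) :=
    { toFun := fun n => ⟨x * n * x⁻¹, hxN n n.2⟩
      map_one' := Subtype.ext (by simp)
      map_mul' := fun a b => Subtype.ext (by simp [mul_assoc]) }
  have hmem : ∀ n : Subgroup.normalizer (U : Set Ω),
      Subgroup.normalizerMonoidHom Q (ψ n) ∈ F.autGroup Q := by
    intro n
    rw [group_autGroup hQP, mem_autInducedBy]
    exact ⟨x * n * x⁻¹, Subgroup.mem_top _, fun _ => rfl⟩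
  let Φ : Subgroup.normalizer (U : Set Ω) →* F.autGroup Q :=
    ((Subgroup.normalizerMonoidHom Q).comp ψ).codRestrict _ hmem
  set C := (Subgroup.centralizer (U : Set Ω)).subgroupOf (Subgroup.normalizer (U : Set Ω)) with hC
  haveI : C.Normal := by
    rw [hC, show (Subgroup.centralizer (U : Set Ω)).subgroupOf (Subgroup.normalizer (U : Set Ω)) =
      (Subgroup.normalizerMonoidHom U).ker from (Subgroup.normalizerMonoidHom_ker U).symm]
    infer_instance
  have hker : ∀ n, Φ n = 1 → n ∈ C := by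
    intro n hn
    refine Subgroup.mem_subgroupOf.2 (Subgroup.mem_centralizer_iff.2 fun v hv => ?_)
    have h1 := congrArg (fun f : F.autGroup Q =>
      (((f : MulAut Q) ⟨x * v * x⁻¹, hQ ▸ conj_mem_cmap hv⟩ : Q) : Ω)) hn
    change (x * (n : Ω) * x⁻¹) * (x * v * x⁻¹) * (x * (n : Ω) * x⁻¹)⁻¹ = x * v * x⁻¹ at h1
    have h2 : x * ((n : Ω) * v * (n : Ω)⁻¹) * x⁻¹ = x * v * x⁻¹ := by rw [← h1]; group
    exact (mul_inv_eq_iff_eq_mul.1 (mul_left_cancel (mul_right_cancel h2))).symm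
  -- the element `g` lands in the core
  have hq' := CfsgLib.ThompsonJ.quadratic_zpowers_iff.1 hq
  have hg1 : (Φ ⟨g, hg⟩ : MulAut Q) ∈ (pCore p ↥(F.autGroup Q)).map (F.autGroup Q).subtype := by
    refine hst Q hQn _ (Φ ⟨g, hg⟩).2 fun a => Subtype.ext ?_
    obtain ⟨v, hv, hva⟩ : ∃ v ∈ U, x * v * x⁻¹ = (a : Ω) := by
      obtain ⟨v, hv, e⟩ := hQ.ge a.2
      exact ⟨v, hv, e⟩
    have h1 := commutatorElement_eq_one_iff_commute.1 (hq' v⁻¹ (inv_mem hv))
    have h2 : g * v⁻¹ * g * v * g⁻¹ * g⁻¹ = v⁻¹ * g * v * g⁻¹ := by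
      have e := h1.eq
      rw [commutatorElement_def, inv_inv] at e
      calc g * v⁻¹ * g * v * g⁻¹ * g⁻¹ = g * (v⁻¹ * g * v * g⁻¹) * g⁻¹ := by group
        _ = v⁻¹ * g * v * g⁻¹ := by rw [← e]; group
    show (x * g * x⁻¹) * (a : Ω)⁻¹ * (x * g * x⁻¹)⁻¹ * (a : Ω) *
      ((x * g * x⁻¹) * (a : Ω)⁻¹ * (x * g * x⁻¹)⁻¹) *
      ((x * g * x⁻¹) * ((x * g * x⁻¹) * (a : Ω) * (x * g * x⁻¹)⁻¹) * (x * g * x⁻¹)⁻¹) = 1
    rw [← hva]
    calc _ = x * (g * v⁻¹ * g⁻¹ * v * (g * v⁻¹ * g * v * g⁻¹ * g⁻¹)) * x⁻¹ := by group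
      _ = 1 := by rw [h2]; group
  obtain ⟨c, hc, hce⟩ := hg1
  set K := (pCore p ↥(F.autGroup Q)).comap Φ with hK
  haveI : (pCore p ↥(F.autGroup Q)).Normal := inferInstance
  haveI : K.Normal := hK ▸ Subgroup.Normal.comap inferInstance Φ
  haveI : (K.map (QuotientGroup.mk' C)).Normal :=
    Subgroup.Normal.map inferInstance _ (QuotientGroup.mk'_surjective C)
  refine CfsgLib.Cores.le_pCore (N := K.map (QuotientGroup.mk' C)) ?_
    ⟨⟨g, hg⟩, (Subtype.ext hce ▸ hc : Φ ⟨g, hg⟩ ∈ pCore p ↥(F.autGroup Q)), rfl⟩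
  rintro ⟨_, n, hn, rfl⟩
  obtain ⟨k, hk⟩ := CfsgLib.Cores.isPGroup_pCore p _ ⟨_, hn⟩
  refine ⟨k, Subtype.ext ?_⟩
  show (QuotientGroup.mk' C n) ^ p ^ k = 1
  rw [← map_pow]
  refine (QuotientGroup.eq_one_iff _).2 (hker _ ?_)
  rw [map_pow]
  exact congrArg Subtype.val hk

/-- `Q` is normalised by the Sylow subgroup `P` and its normalizer controls strong fusion in `P`. -/
def Controls (P : Sylow p Ω) (Q : Subgroup Ω) : Prop :=
  Q ≤ (P : Subgroup Ω) ∧ (P : Subgroup Ω) ≤ Subgroup.normalizer (Q : Set Ω) ∧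
    ∀ A : Subgroup Ω, A ≤ (P : Subgroup Ω) → ∀ g : Ω, cmap g A ≤ (P : Subgroup Ω) →
      ∃ h ∈ Subgroup.normalizer (Q : Set Ω), ∀ a ∈ A, h * a * h⁻¹ = g * a * g⁻¹

/-- A subgroup whose normalizer controls strong fusion is normal in the fusion system. -/
theorem Controls.isNormal {P : Sylow p Ω} {Q : Subgroup Ω} (h : Controls P Q) :
    (groupFusionSystem (P : Subgroup Ω)).IsNormal Q := by
  refine ⟨h.1, ?_⟩
  rintro A φ ⟨hA, hφP, g, hg⟩
  obtain ⟨k, hk, hke⟩ := h.2.2 A hA g (by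
    rintro _ ⟨a, ha, rfl⟩
    show g * a * g⁻¹ ∈ (P : Subgroup Ω)
    rw [← hg ⟨a, ha⟩]
    exact hφP _)
  refine ⟨conjHom (A ⊔ Q) k, conjHom_mem_group k (sup_le hA h.1) ?_, fun x => ?_, ?_⟩
  · intro y hy
    have hle : cmap k (A ⊔ Q) ≤ (P : Subgroup Ω) := by
      rw [cmap, Subgroup.map_sup, sup_le_iff]
      refine ⟨?_, (cmap_eq_of_mem_normalizer hk).le.trans h.1⟩
      rintro _ ⟨a, ha, rfl⟩
      show k * a * k⁻¹ ∈ (P : Subgroup Ω)
      rw [hke a ha, ← hg ⟨a, ha⟩]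
      exact hφP _
    exact hle (conj_mem_cmap hy)
  · rw [hg x]
    exact hke x x.2
  · refine le_antisymm ?_ fun y hy => ?_
    · rintro _ ⟨y, hy, rfl⟩
      exact (Subgroup.mem_normalizer_iff.1 hk _).1 hy
    · obtain ⟨z, hz, rfl⟩ := (cmap_eq_of_mem_normalizer hk).ge hy
      exact ⟨⟨z, Subgroup.mem_sup_right hz⟩, hz, rfl⟩

/-- A `p`-stable group has a controlling subgroup containing its centralizer in the Sylow subgroup. -/
theorem exists_controls_centric (hp2 : p ≠ 2) (hG : IsNormalizerPStable p Ω) (P : Sylow p Ω) :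
    ∃ Q : Subgroup Ω, Controls P Q ∧ (P : Subgroup Ω) ⊓ Subgroup.centralizer (Q : Set Ω) ≤ Q := by
  obtain ⟨Q, hQ, hmax⟩ := (Set.toFinite {Q : Subgroup Ω | Controls P Q}).exists_maximalFor id _
    ⟨⊥, bot_le, by rw [Subgroup.normalizer_eq_top]; exact le_top,
      fun A _ g _ => ⟨g, by rw [Subgroup.normalizer_eq_top]; trivial, fun _ _ => rfl⟩⟩
  obtain ⟨hQP, hPQ, hctl⟩ := hQ
  refine ⟨Q, ⟨hQP, hPQ, hctl⟩, fun z hz => ?_⟩
  by_contra hzQ
  set N := Subgroup.normalizer (Q : Set Ω) with hN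
  let PN : Sylow p N := P.subtype hPQ
  have hQN : Q ≤ N := Subgroup.le_normalizer
  haveI : (Q.subgroupOf N).Normal := Subgroup.normal_in_normalizer
  have hQp : IsPGroup p (Q.subgroupOf N) :=
    (P.2.to_le hQP).of_equiv (Subgroup.subgroupOfEquivOfLe hQN).symm
  obtain ⟨R, hQR, hRP, hPR, hR⟩ := CfsgLib.QdFree.exists_larger_control hp2
    (isStableClass_isNormalizerPStable_odd hp2) (CfsgLib.Replacement.isNormalizerPStable_subgroup N hG)
    PN hQp (fun hle => hzQ (hle (x := ⟨z, Subgroup.centralizer_le_normalizer _ hz.2⟩) ⟨by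
      show (⟨z, _⟩ : N) ∈ (PN : Subgroup N)
      rw [Sylow.coe_subtype]; exact hz.1, Subgroup.mem_centralizer_iff.2 fun q hq =>
        Subtype.ext (Subgroup.mem_centralizer_iff.1 hz.2 q hq)⟩))
  have hC : Controls P (R.map N.subtype) := by
    refine ⟨?_, fun s hs => Subgroup.le_normalizer_map N.subtype
      ⟨⟨s, hPQ hs⟩, hPR (show (⟨s, hPQ hs⟩ : N) ∈ (PN : Subgroup N) by
        rw [Sylow.coe_subtype]; exact hs), rfl⟩, fun A hA g hg => ?_⟩
    · rintro _ ⟨r, hr, rfl⟩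
      have := hRP hr
      rwa [Sylow.coe_subtype] at this
    · obtain ⟨h, hh, hhe⟩ := hctl A hA g hg
      obtain ⟨y, hy, hye⟩ := hR (A.subgroupOf N) (by
          rw [Sylow.coe_subtype]; exact fun a ha => hA ha) ⟨h, hh⟩ (by
          rw [Sylow.coe_subtype]
          rintro _ ⟨a, ha, rfl⟩
          show h * (a : Ω) * h⁻¹ ∈ (P : Subgroup Ω)
          rw [hhe a ha]
          exact hg (conj_mem_cmap ha))
      refine ⟨y, Subgroup.le_normalizer_map N.subtype ⟨y, hy, rfl⟩, fun a ha => ?_⟩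
      exact (congrArg Subtype.val (hye ⟨a, hPQ (hA ha)⟩ ha)).trans (hhe a ha)
  refine hQR.ne (le_antisymm hQR.le fun r hr => ?_)
  exact hmax hC (fun q hq => ⟨⟨q, hQN hq⟩, hQR.le hq, rfl⟩) ⟨r, hr, rfl⟩

/-- The fusion system of a `p`-stable group has a normal centric subgroup. -/
theorem exists_isNormal_isCentric (hp2 : p ≠ 2) (hG : IsNormalizerPStable p Ω) (P : Sylow p Ω) :
    ∃ Q : Subgroup Ω, (groupFusionSystem (P : Subgroup Ω)).IsNormal Q ∧
      (groupFusionSystem (P : Subgroup Ω)).IsCentric Q := by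
  obtain ⟨Q, hQ, hc⟩ := exists_controls_centric hp2 hG P
  refine ⟨Q, hQ.isNormal, hQ.1, fun R hR => ?_⟩
  rw [CfsgLib.FusionExamples.eq_of_isConj_of_isNormal hQ.isNormal hR]
  exact hc

end CfsgLib.FusionBasics.PStable
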